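import Cfsg.Agent.Lib.SuzChar.Table
import Cfsg.Agent.Lib.Char.Degree
import Cfsg.Prelude.Def_DegreeGraph

/-! The character degrees of the Suzuki group. -/

set_option autoImplicit false
set_option linter.style.haveILetI false
set_option linter.unusedSectionVars false

namespace Cfsg.Agent.Lib.SuzChar

open Cfsg Cfsg.Agent.Lib.Suz Cfsg.Agent.Lib

universe u v

theorem charDegrees_congr {G : Type u} {H : Type v} [Group G] [Group H] (e : G ≃* H) :
    charDegrees G = charDegrees H := by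
  ext d
  constructor
  · rintro ⟨χ, rfl⟩
    exact ⟨⟨χ.1 ∘ e.symm, Char.isIrrCharacter_comp χ.2 e.symm.toMonoidHom e.symm.surjective⟩,
      by simp [charDegree]⟩
  · rintro ⟨χ, rfl⟩
    exact ⟨⟨χ.1 ∘ e, Char.isIrrCharacter_comp χ.2 e.toMonoidHom e.surjective⟩, by simp [charDegree]⟩

variable {F : Type u} [Field F] [Fintype F] [CharP F 2] {m : ℕ} (c : Ctx F m)
variable [DecidableEq F] [Fintype ↥(Cfsg.Sz F m)]

include c

/-- the six degrees -/
theorem sz_degrees : charDegrees ↥(Cfsg.Sz F m) =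
    {1, Fintype.card F ^ 2, Fintype.card F ^ 2 + 1, (Fintype.card F - 1) * (2 * 2 ^ m * (2 ^ m - 1) + 1),
      (Fintype.card F - 1) * (2 * 2 ^ m * (2 ^ m + 1) + 1), (Fintype.card F - 1) * 2 ^ m} := by
  classical
  haveI : Fintype (Fˣ →* ℂˣ) := Fintype.ofFinite _
  obtain ⟨F1, F2, W, T⟩ := exists_table c
  have h1p : 1 ≤ 2 ^ m := Nat.one_le_two_pow
  have hq1 : 1 ≤ Fintype.card F := le_trans (by norm_num) c.eight_le
  have hq := card_eq_two_sq c
  have hp : (2 : ℤ) ≤ 2 ^ m := p_two_le c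
  have hc1 : (((Fintype.card F - 1) * (2 * 2 ^ m * (2 ^ m - 1) + 1) : ℕ) : ℂ) =
      (((2 * (2 ^ m) ^ 2 - 1) * (2 * (2 ^ m) ^ 2 - 2 * 2 ^ m + 1) : ℤ) : ℂ) := by
    rw [Nat.cast_mul, Nat.cast_sub hq1, hq, Nat.cast_add (2 * 2 ^ m * (2 ^ m - 1)),
      Nat.cast_mul (2 * 2 ^ m), Nat.cast_sub h1p]
    push_cast; ring
  have hc2 : (((Fintype.card F - 1) * (2 * 2 ^ m * (2 ^ m + 1) + 1) : ℕ) : ℂ) =
      (((2 * (2 ^ m) ^ 2 - 1) * (2 * (2 ^ m) ^ 2 + 2 * 2 ^ m + 1) : ℤ) : ℂ) := by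
    rw [Nat.cast_mul, Nat.cast_sub hq1, hq]
    push_cast; ring
  have hc3 : (((Fintype.card F - 1) * 2 ^ m : ℕ) : ℂ) = (((2 * (2 ^ m) ^ 2 - 1) * 2 ^ m : ℤ) : ℂ) := by
    rw [Nat.cast_mul, Nat.cast_sub hq1, hq]
    push_cast; ring
  ext d
  simp only [Set.mem_insert_iff, Set.mem_singleton_iff]
  constructor
  · rintro ⟨χ, rfl⟩
    by_cases hχ : χ ∈ cusp c
    · rcases (T.mem χ).1 hχ with h | h | h
      · exact Or.inr (Or.inr (Or.inr (Or.inl
          (Char.charDegree_eq_of_apply_one ((T.one1 χ h).trans hc1.symm)))))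
      · exact Or.inr (Or.inr (Or.inr (Or.inr (Or.inl
          (Char.charDegree_eq_of_apply_one ((T.one2 χ h).trans hc2.symm))))))
      · exact Or.inr (Or.inr (Or.inr (Or.inr (Or.inr
          (Char.charDegree_eq_of_apply_one ((T.oneW χ h).trans hc3.symm))))))
    · rcases not_cusp c hχ with e | e | ⟨α, -, e⟩
      · exact Or.inl (Char.charDegree_eq_of_apply_one (by rw [e]; simp))
      · exact Or.inr (Or.inl (Char.charDegree_eq_of_apply_one (by rw [e, stn_one]; push_cast; rfl)))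
      · exact Or.inr (Or.inr (Or.inl (Char.charDegree_eq_of_apply_one (by rw [e, prin_one]; push_cast; rfl))))
  · have hF1 : F1.Nonempty := Finset.card_pos.1 (by
      have := T.card1
      have : 0 < (F1.card : ℤ) := by nlinarith
      exact_mod_cast this)
    have hF2 : F2.Nonempty := Finset.card_pos.1 (by
      have := T.card2
      have : 0 < (F2.card : ℤ) := by nlinarith
      exact_mod_cast this)
    have hW : W.Nonempty := Finset.card_pos.1 (by rw [T.cardW]; norm_num)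
    obtain ⟨α, hα⟩ : ∃ α : Fˣ →* ℂˣ, α ≠ 1 := by
      apply Fintype.exists_ne_of_one_lt_card
      rw [← Nat.card_eq_fintype_card, card_homs, Fintype.card_units]
      have := c.eight_le
      omega
    rintro (rfl | rfl | rfl | rfl | rfl | rfl)
    · exact ⟨⟨fun _ => 1, Char.isIrrCharacter_one⟩, Char.charDegree_eq_of_apply_one (by simp)⟩
    · exact ⟨⟨stn c, stn_irr c⟩, Char.charDegree_eq_of_apply_one (by simp only [stn_one]; push_cast; rfl)⟩
    · exact ⟨⟨prin c α, prin_irr c hα⟩, Char.charDegree_eq_of_apply_one (by simp only [prin_one]; push_cast; rfl)⟩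
    · obtain ⟨χ, h⟩ := hF1
      exact ⟨χ, Char.charDegree_eq_of_apply_one ((T.one1 χ h).trans hc1.symm)⟩
    · obtain ⟨χ, h⟩ := hF2
      exact ⟨χ, Char.charDegree_eq_of_apply_one ((T.one2 χ h).trans hc2.symm)⟩
    · obtain ⟨χ, h⟩ := hW
      exact ⟨χ, Char.charDegree_eq_of_apply_one ((T.oneW χ h).trans hc3.symm)⟩

end Cfsg.Agent.Lib.SuzChar
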